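import Mathlib
import Cfsg.Agent.H415.PG.Def

/-!
# Fixed vectors from a noncyclic abelian subgroup (helper748, task 4171, S3635)

* `fixT_of_comm` : two commuting elements `x`, `y` of prime order `t`, `x ∉ ⟨y⟩`: in every nonzero module of
  characteristic `r ≠ t` some element of order `t` fixes a nonzero vector.
-/

set_option autoImplicit false

namespace Cfsg.Agent.H748.PG

open Cfsg.Agent.H415.PG3

universe v w

variable {L : Type v} [Group L]

theorem fixT_of_comm {r t : ℕ} (hr : r.Prime) (ht : t.Prime) (hrt : r ≠ t) {x y : L} (hx : orderOf x = t)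
    (hy : orderOf y = t) (hc : Commute x y) (hxy : x ∉ Subgroup.zpowers y) : FixT.{v, w} L r t := by
  classical
  intro V _ _ _ _ ρ
  have : Fact r.Prime := ⟨hr⟩
  have : Fact t.Prime := ⟨ht⟩
  by_contra hcon
  push Not at hcon
  obtain ⟨v, hv⟩ := exists_ne (0 : V)
  have hmul : ∀ (a b : L) (u : V), ρ (a * b) u = ρ a (ρ b u) := fun a b u => by rw [map_mul]; rfl
  -- the trace of an element of order `t`
  have htr : ∀ z : L, orderOf z = t → ∀ u : V, ∑ j ∈ Finset.range t, ρ (z ^ j) u = 0 := by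
    intro z hz u
    by_contra hne
    refine hcon z hz _ hne ?_
    rw [map_sum]
    have h1 : ∀ j ∈ Finset.range t, ρ z (ρ (z ^ j) u) = ρ (z ^ (j + 1)) u := by
      intro j _
      rw [← hmul, ← pow_succ']
    rw [Finset.sum_congr rfl h1]
    have h2 := Finset.sum_range_succ (fun j => ρ (z ^ j) u) t
    have h3 := Finset.sum_range_succ' (fun j => ρ (z ^ j) u) t
    have h4 : ρ (z ^ t) u = ρ (z ^ 0) u := by rw [← hz, pow_orderOf_eq_one, pow_zero]
    rw [h4] at h2
    exact add_right_cancel (h3.symm.trans h2)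
  have hx' : ∀ i : ℕ, orderOf (x * y ^ i) = t := by
    intro i
    refine orderOf_eq_prime ?_ ?_
    · rw [(hc.pow_right i).mul_pow, ← hx, pow_orderOf_eq_one, one_mul, ← pow_mul, mul_comm, pow_mul, hx, ← hy,
        pow_orderOf_eq_one, one_pow]
    · intro h
      apply hxy
      rw [eq_inv_of_mul_eq_one_left h]
      exact inv_mem (pow_mem (Subgroup.mem_zpowers y) i)
  have h1 : ∑ j ∈ Finset.range t, ∑ i ∈ Finset.range t, ρ ((x * y ^ i) ^ j) v = 0 := by
    rw [Finset.sum_comm]
    exact Finset.sum_eq_zero fun i _ => htr _ (hx' i) v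
  have h2 : ∀ j ∈ Finset.range t, j ≠ 0 → ∑ i ∈ Finset.range t, ρ ((x * y ^ i) ^ j) v = 0 := by
    intro j hj hj0
    have h3 : ∀ i ∈ Finset.range t, ρ ((x * y ^ i) ^ j) v = ρ (x ^ j) (ρ ((y ^ j) ^ i) v) := by
      intro i _
      rw [(hc.pow_right i).mul_pow, ← pow_mul, mul_comm i j, pow_mul, hmul]
    rw [Finset.sum_congr rfl h3, ← map_sum]
    have h4 : orderOf (y ^ j) = t := by
      refine orderOf_eq_prime ?_ ?_
      · rw [← pow_mul, mul_comm, pow_mul, ← hy, pow_orderOf_eq_one, one_pow]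
      · intro h
        have h5 := orderOf_dvd_of_pow_eq_one h
        rw [hy] at h5
        have h6 := Nat.le_of_dvd (Nat.pos_of_ne_zero hj0) h5
        rw [Finset.mem_range] at hj
        omega
    rw [htr _ h4, map_zero]
  rw [Finset.sum_eq_single 0 h2 (fun h => absurd (Finset.mem_range.2 ht.pos) h)] at h1
  simp only [pow_zero, map_one, LinearEquiv.coe_one, id_eq, Finset.sum_const, Finset.card_range] at h1
  -- `t v = 0`
  have h3 : ((t : ℕ) : ZMod r) • v = 0 := by
    rw [Nat.cast_smul_eq_nsmul]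
    exact h1
  have h4 : ((t : ℕ) : ZMod r) ≠ 0 := by
    intro h
    exact hrt ((Nat.prime_dvd_prime_iff_eq hr ht).1 ((ZMod.natCast_eq_zero_iff t r).1 h))
  exact hv ((smul_eq_zero.1 h3).resolve_left h4)

end Cfsg.Agent.H748.PG
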