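import Cfsg.Agent.H748.PG.RankTwo
import Cfsg.Agent.H496.TwFRad.Levi

/-!
# Elements of order 5 and 2 of `²F₄(q)` fix vectors (helper748, task 4171, S3635)

`L4 ≅ M4 ≅ Sz(q)` commute and meet trivially, so `²F₄(q)` contains commuting elements `x`, `y` of order `t`, `x ∉ ⟨y⟩`,
for every prime `t` dividing `|Sz(q)|`.
-/

set_option autoImplicit false

namespace Cfsg.Agent.H748.PG

open Cfsg Cfsg.Lie Cfsg.Agent.H415.PG3
open Cfsg.Agent.KFacts.TwF4 Cfsg.Agent.KFacts.TwF4.Inst Cfsg.Agent.KFacts.TwF4.Irr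
open Cfsg.Agent.CpAutTwF.Cent (M4 map_L4 L4_comm_M4)
open Cfsg.Agent.H496.TwFRad.Levi (card_L4 inf_one)

universe w

variable {K : Type} [Field K] [Fintype K] {m : ℕ}

theorem fixT_twF4 (hm : 1 ≤ m) (hK : Fintype.card K = 2 ^ (2 * m + 1)) {r t : ℕ} (hr : r.Prime) (ht : t.Prime)
    (hrt : r ≠ t) (hd : t ∣ 2 ^ (2 * m + 1) * 2 ^ (2 * m + 1) * (2 ^ (2 * m + 1) - 1) *
      (2 ^ (2 * m + 1) * 2 ^ (2 * m + 1) + 1)) : FixT.{0, w} ↥(Cfsg.Lie.twistedF4 K (2 ^ m)) r t := by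
  classical
  have : Fact t.Prime := ⟨ht⟩
  have : CharP K 2 := Cfsg.Agent.ChevalleyStructure.F4Fixed.charP_two hK
  have hfin : Finite ↥(twistedF4 K (2 ^ m)) := inferInstance
  obtain ⟨φ, hφ⟩ := Cfsg.Agent.ChevalleyStructure.TwF4.TwistedFix.exists_rln hK
  obtain ⟨S, -⟩ : ∃ S : Full φ ↥(twistedF4 K (2 ^ m)), S = full hK hφ := ⟨_, rfl⟩
  have hcF : Nat.card K = 2 ^ (2 * m + 1) := by rw [Nat.card_eq_fintype_card, hK]
  have hF : ∃ d : Kˣ, d ≠ 1 := by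
    have h1 : 1 < Nat.card Kˣ := by
      rw [Nat.card_units, hcF]
      have : 2 ^ 3 ≤ 2 ^ (2 * m + 1) := Nat.pow_le_pow_right (by norm_num) (by omega)
      omega
    have h2 : Nontrivial Kˣ := Finite.one_lt_card_iff_nontrivial.1 h1
    exact exists_ne 1
  have hL : t ∣ Nat.card (L4 S) := by
    rw [card_L4 S hF, hcF]
    exact hd
  obtain ⟨x, hx⟩ := exists_prime_orderOf_dvd_card' t hL
  have hM : t ∣ Nat.card (M4 S) := by
    rw [← map_L4 S, Subgroup.card_map_of_injective (S.ck 2).injective]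
    exact hL
  obtain ⟨y, hy⟩ := exists_prime_orderOf_dvd_card' t hM
  have hx1 : (x : ↥(twistedF4 K (2 ^ m))) ≠ 1 := by
    intro h
    rw [← Subgroup.orderOf_coe, h, orderOf_one] at hx
    exact ht.one_lt.ne hx
  refine fixT_of_comm hr ht hrt (x := (x : ↥(twistedF4 K (2 ^ m)))) (y := (y : ↥(twistedF4 K (2 ^ m))))
    (by rw [Subgroup.orderOf_coe, hx]) (by rw [Subgroup.orderOf_coe, hy]) (L4_comm_M4 S x.2 y.2) fun h => hx1 ?_
  exact inf_one S hF x.2 ((Subgroup.zpowers_le.2 y.2) h)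

/-- **Elements of order 5.** -/
theorem fixT_five (hm : 1 ≤ m) (hK : Fintype.card K = 2 ^ (2 * m + 1)) {r : ℕ} (hr : r.Prime) (_hr2 : r ≠ 2)
    (hr5 : r ≠ 5) : Cfsg.Agent.H415.PG3.FixT.{0, w} ↥(Cfsg.Lie.twistedF4 K (2 ^ m)) r 5 := by
  refine fixT_twF4 hm hK hr (by norm_num) hr5 (Dvd.dvd.mul_left ?_ _)
  have h1 : (2 ^ (2 * m + 1) * 2 ^ (2 * m + 1) + 1) = 4 * 16 ^ m + 1 := by
    rw [show (16 : ℕ) = 2 ^ 4 by norm_num, ← pow_mul, show 2 * m + 1 = 2 * m + 1 from rfl]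
    ring
  have h2 : 16 ^ m % 5 = 1 := by
    norm_num [Nat.pow_mod]
  rw [h1, Nat.dvd_iff_mod_eq_zero]
  omega

/-- **Involutions.** -/
theorem fixT_two (hm : 1 ≤ m) (hK : Fintype.card K = 2 ^ (2 * m + 1)) {r : ℕ} (hr : r.Prime) (hr2 : r ≠ 2) :
    Cfsg.Agent.H415.PG3.FixT.{0, w} ↥(Cfsg.Lie.twistedF4 K (2 ^ m)) r 2 := by
  refine fixT_twF4 hm hK hr Nat.prime_two hr2 ?_
  have h1 : (2 : ℕ) ∣ 2 ^ (2 * m + 1) := dvd_pow_self 2 (by omega)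
  exact Dvd.dvd.mul_right (Dvd.dvd.mul_right (Dvd.dvd.mul_right h1 _) _) _

end Cfsg.Agent.H748.PG
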